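import Cfsg.Agent.H846.OZ.Even
import Cfsg.Agent.S2299
import Cfsg.Agent.S2301
import Cfsg.Agent.S2321
import Cfsg.Agent.S2322
import Cfsg.Agent.S2434

/-!
# S4842, row PSL₂(q) (helper846)
-/

set_option autoImplicit false

open Cfsg
open Matrix (ProjectiveSpecialLinearGroup)

namespace Cfsg.Agent.H846.OZ

open Cfsg.Agent.H730.OZ (OneZero Concl Row)
open Cfsg.Agent.Characters

universe u

/-- Conjugacy in `PSL₂` and `SL₂`. -/
theorem isConj_of_mk {F : Type*} [Field F] {g h : Matrix.SpecialLinearGroup (Fin 2) F}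
    (H : IsConj (QuotientGroup.mk' (Subgroup.center (Matrix.SpecialLinearGroup (Fin 2) F)) g)
      (QuotientGroup.mk' (Subgroup.center (Matrix.SpecialLinearGroup (Fin 2) F)) h)) (ht : tr g = tr h)
    (h0 : tr g ≠ 0) : IsConj g h := by
  obtain ⟨c, hc⟩ := isConj_iff.1 H
  obtain ⟨k, rfl⟩ := QuotientGroup.mk'_surjective _ c
  rw [← map_mul, ← map_inv, ← map_mul] at hc
  obtain ⟨z, hz, e⟩ := (QuotientGroup.mk'_eq_mk' _).1 hc
  obtain ⟨r, hr1, hr2⟩ := Matrix.SpecialLinearGroup.mem_center_iff.1 hz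
  have h1 : ((z : Matrix.SpecialLinearGroup (Fin 2) F) : Matrix (Fin 2) (Fin 2) F) =
      r • (1 : Matrix (Fin 2) (Fin 2) F) := by
    rw [← hr2]
    ext i j
    simp [Matrix.scalar_apply, Matrix.diagonal_apply, Matrix.one_apply]
  have h3 : tr h = r * tr g := by
    rw [← tr_conj g k, ← e]
    unfold tr
    rw [Matrix.SpecialLinearGroup.coe_mul, h1, Matrix.mul_smul, Matrix.mul_one, Matrix.trace_smul, smul_eq_mul]
  have h4 : r = 1 := by
    rw [← ht] at h3
    have : (r - 1) * tr g = 0 := by linear_combination -h3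
    rcases mul_eq_zero.1 this with h5 | h5
    · exact sub_eq_zero.1 h5
    · exact absurd h5 h0
  have h5 : z = 1 := by
    apply Subtype.ext
    rw [h1, h4, one_smul]
    rfl
  rw [h5, mul_one] at e
  exact isConj_iff.2 ⟨k, e⟩

/-- the transvection -/
def ub {F : Type*} [Field F] (b : F) : Matrix.SpecialLinearGroup (Fin 2) F :=
  ⟨!![1, b; 0, 1], by simp [Matrix.det_fin_two]⟩

theorem tr_ub {F : Type*} [Field F] (b : F) : tr (ub b) = 2 := by
  simp [tr, ub, Matrix.trace_fin_two]
  norm_num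

section seven

variable {F : Type*} [Field F] [Fintype F]

theorem seven_eq (h7 : Fintype.card F = 7) : (7 : F) = 0 := by
  have h1 : ((Fintype.card F : ℕ) : F) = 0 := Nat.cast_card_eq_zero F
  rw [h7] at h1
  exact_mod_cast h1

omit [Fintype F] in
theorem cp_sq (t : F) : ((cp t ^ 2 : Matrix.SpecialLinearGroup (Fin 2) F) : Matrix (Fin 2) (Fin 2) F) =
    !![-1, -t; t, t ^ 2 - 1] := by
  rw [pow_two, Matrix.SpecialLinearGroup.coe_mul]
  simp only [cp]
  rw [Matrix.mul_fin_two]
  ext i j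
  fin_cases i <;> fin_cases j <;> simp
  ring

theorem cp_four (h7 : Fintype.card F = 7) : ((cp (3 : F) ^ 4 : Matrix.SpecialLinearGroup (Fin 2) F) :
    Matrix (Fin 2) (Fin 2) F) = !![-1, 0; 0, -1] := by
  have e : (cp (3 : F)) ^ 4 = cp (3 : F) ^ 2 * cp (3 : F) ^ 2 := by rw [← pow_add]
  have h0 := seven_eq h7
  rw [e, Matrix.SpecialLinearGroup.coe_mul, cp_sq, Matrix.mul_fin_two]
  ext i j
  fin_cases i <;> fin_cases j <;> simp <;> ring_nf
  · linear_combination (-1 : F) * h0
  · linear_combination (-3 : F) * h0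
  · linear_combination (3 : F) * h0
  · linear_combination (8 : F) * h0

theorem two_ne (h7 : Fintype.card F = 7) : (2 : F) ≠ 0 := by
  intro h
  have h0 := seven_eq h7
  have : (1 : F) = 0 := by linear_combination h0 - 3 * h
  exact one_ne_zero this

theorem orderOf_cp (h7 : Fintype.card F = 7) : orderOf (cp (3 : F)) = 8 := by
  have h4 := cp_four h7
  have h8 : cp (3 : F) ^ 2 ^ (2 + 1) = 1 := by
    have e : cp (3 : F) ^ 2 ^ (2 + 1) = cp (3 : F) ^ 4 * cp (3 : F) ^ 4 := by rw [← pow_add]; rfl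
    apply Subtype.ext
    rw [e, Matrix.SpecialLinearGroup.coe_mul, h4, Matrix.mul_fin_two, Matrix.SpecialLinearGroup.coe_one]
    ext i j
    fin_cases i <;> fin_cases j <;> simp
  have hn : ¬ cp (3 : F) ^ 2 ^ 2 = 1 := by
    intro h
    have h' : ((cp (3 : F) ^ 4 : Matrix.SpecialLinearGroup (Fin 2) F) : Matrix (Fin 2) (Fin 2) F) = 1 := by
      have : cp (3 : F) ^ 4 = 1 := h
      rw [this, Matrix.SpecialLinearGroup.coe_one]
    rw [h4] at h'
    have h5 := congrFun (congrFun h' 0) 0
    simp at h5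
    -- -1 = 1
    exact two_ne h7 (by linear_combination -h5)
  have : Fact (Nat.Prime 2) := ⟨Nat.prime_two⟩
  have := orderOf_eq_prime_pow hn h8
  simpa using this

theorem cp_four_center (h7 : Fintype.card F = 7) :
    cp (3 : F) ^ 4 ∈ Subgroup.center (Matrix.SpecialLinearGroup (Fin 2) F) := by
  rw [Matrix.SpecialLinearGroup.mem_center_iff]
  refine ⟨-1, by simp, ?_⟩
  rw [cp_four h7]
  ext i j
  fin_cases i <;> fin_cases j <;> simp [Matrix.scalar_apply]

omit [Fintype F] in
theorem not_center_of {g : Matrix.SpecialLinearGroup (Fin 2) F} (h : (g : Matrix (Fin 2) (Fin 2) F) 0 1 ≠ 0) :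
    g ∉ Subgroup.center (Matrix.SpecialLinearGroup (Fin 2) F) := by
  intro hz
  obtain ⟨r, -, hr2⟩ := Matrix.SpecialLinearGroup.mem_center_iff.1 hz
  apply h
  rw [← hr2]
  simp [Matrix.scalar_apply]

/-- the characters of degree six of `PSL₂(7)` vanish at the elements of order four -/
theorem zero_seven (h7 : Fintype.card F = 7) {ψ : Matrix.SpecialLinearGroup (Fin 2) F → ℂ} (hψ : IsIrrCharacter _ ψ)
    (hd : ψ 1 = (Fintype.card F : ℂ) - 1)
    (hc : ∀ z ∈ Subgroup.center (Matrix.SpecialLinearGroup (Fin 2) F), ∀ g, ψ (z * g) = ψ g) :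
    ψ (cp 3) = 0 := by
  set c : Matrix.SpecialLinearGroup (Fin 2) F := cp 3 with hcdef
  have hcard : Nat.card (Subgroup.zpowers c) = Fintype.card F + 1 := by
    rw [Nat.card_zpowers, hcdef, orderOf_cp h7, h7]
  obtain ⟨θ, ⟨d, hd2⟩, hθ⟩ := (S2434.result (by rw [h7]; decide) (Subgroup.zpowers c) inferInstance hcard).2 ψ hψ hd
  set x : Subgroup.zpowers c := ⟨c, Subgroup.mem_zpowers c⟩ with hx
  have hn1 : (x : Matrix.SpecialLinearGroup (Fin 2) F) ∉ Subgroup.center (Matrix.SpecialLinearGroup (Fin 2) F) := by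
    apply not_center_of
    simp [hx, hcdef, cp]
  have hn5 : ((x ^ 4 * x : Subgroup.zpowers c) : Matrix.SpecialLinearGroup (Fin 2) F) ∉
      Subgroup.center (Matrix.SpecialLinearGroup (Fin 2) F) := by
    intro h
    apply hn1
    have h4 : ((x ^ 4 : Subgroup.zpowers c) : Matrix.SpecialLinearGroup (Fin 2) F) ∈
        Subgroup.center (Matrix.SpecialLinearGroup (Fin 2) F) := by
      simpa [hx] using cp_four_center h7
    have h6 := mul_mem (inv_mem h4) h
    simpa using h6
  have e1 := hθ x hn1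
  have e5 := hθ (x ^ 4 * x) hn5
  have e6 : ψ ((x ^ 4 * x : Subgroup.zpowers c) : Matrix.SpecialLinearGroup (Fin 2) F) = ψ c := by
    have := hc (c ^ 4) (cp_four_center h7) c
    simpa [hx] using this
  set w : ℂ := ((θ x : ℂˣ) : ℂ) with hw
  have hw0 : w ≠ 0 := (θ x).ne_zero
  have hx8 : x ^ 8 = 1 := by
    apply Subtype.ext
    have : c ^ 8 = 1 := by
      have h := pow_orderOf_eq_one c
      rwa [hcdef, orderOf_cp h7] at h
    simpa [hx] using this
  have hw8 : w ^ 8 = 1 := by
    rw [hw, ← Units.val_pow_eq_pow_val, ← map_pow, hx8, map_one, Units.val_one]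
  have e5' : ψ c = -(w ^ 4 * w + (w ^ 4 * w)⁻¹) := by
    rw [← e6, e5, map_mul, map_pow]
    simp [hw]
  have e1' : ψ c = -(w + w⁻¹) := by
    have : ψ c = ψ (x : Matrix.SpecialLinearGroup (Fin 2) F) := rfl
    rw [this, e1]
    simp [hw]
  have hw4 : w ^ 4 = 1 ∨ w ^ 4 = -1 := by
    have : (w ^ 4 - 1) * (w ^ 4 + 1) = 0 := by linear_combination hw8
    rcases mul_eq_zero.1 this with h | h
    · exact Or.inl (sub_eq_zero.1 h)
    · exact Or.inr (eq_neg_of_add_eq_zero_left h)
  have hw2 : w ^ 2 ≠ 1 := by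
    intro h
    apply hd2
    obtain ⟨n, hn⟩ := Subgroup.mem_zpowers_iff.1 d.2
    have hdx : d = x ^ n := by
      apply Subtype.ext
      rw [← hn]
      simp [hx]
    have h1 : (θ x) ^ 2 = 1 := by
      apply Units.ext
      rw [Units.val_pow_eq_pow_val, Units.val_one]
      exact h
    rw [hdx, map_zpow, ← zpow_natCast, ← zpow_mul, mul_comm, zpow_mul, zpow_natCast, h1, one_zpow]
  have key : w ^ 2 = -1 := by
    rcases hw4 with h | h
    · have : (w ^ 2 - 1) * (w ^ 2 + 1) = 0 := by linear_combination h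
      rcases mul_eq_zero.1 this with h' | h'
      · exact absurd (sub_eq_zero.1 h') hw2
      · exact eq_neg_of_add_eq_zero_left h'
    · have h1 : w + w⁻¹ = 0 := by
        have h2 := e5'.symm.trans e1'
        rw [h] at h2
        have h3 : (-1 * w)⁻¹ = -w⁻¹ := by
          rw [neg_one_mul, inv_neg]
        rw [h3] at h2
        have h4 : 2 * (w + w⁻¹) = 0 := by linear_combination h2
        rcases mul_eq_zero.1 h4 with h5 | h5
        · norm_num at h5
        · exact h5
      have h2 : w * (w + w⁻¹) = 0 := by rw [h1, mul_zero]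
      rw [mul_add, mul_inv_cancel₀ hw0] at h2
      linear_combination h2
  rw [e1']
  have h2 : w * (w + w⁻¹) = 0 := by
    rw [mul_add, mul_inv_cancel₀ hw0]
    linear_combination key
  rcases mul_eq_zero.1 h2 with h3 | h3
  · exact absurd h3 hw0
  · rw [h3, neg_zero]

end seven

/-- **Row PSL₂(q)**, `q` odd. -/
theorem row_odd {S : Type u} [Group S] [Finite S] {F : Type} [Field F] [Fintype F] (hodd : Odd (Fintype.card F))
    (h4 : 4 ≤ Fintype.card F) (e : S ≃* ProjectiveSpecialLinearGroup (Fin 2) F) : Row S := by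
  classical
  have hpk : IsPrimePow (Fintype.card F) := by
    have := FiniteField.isPrimePow_card F
    simpa using this
  rcases Nat.lt_or_ge (Fintype.card F) 7 with h7 | h7
  · -- `q = 5`
    have h5 : Fintype.card F = 5 := by
      obtain ⟨k, hk⟩ := hodd
      omega
    have : Fintype (GaloisField 2 2) := Fintype.ofFinite _
    have hF : Fintype.card (GaloisField 2 2) = 4 := by
      rw [← Nat.card_eq_fintype_card, GaloisField.card 2 2 (by norm_num)]
      norm_num
    obtain ⟨f⟩ := S0253.result h5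
    obtain ⟨f'⟩ := S0252.result hF
    exact row_even (F := GaloisField 2 2) hF.ge ((e.trans f).trans f'.symm)
  intro χ hχ h0
  have hψ := isIrr_psi e hχ
  have h1 := psi_one e χ
  have hnon : ¬ (χ 1 = (Fintype.card F : ℂ) + 1 ∨ χ 1 = (((Fintype.card F + 1) / 2 : ℕ) : ℂ)) := by
    intro h
    obtain ⟨s, t, hs, ht, hst⟩ := exists_irr (F := F) (Or.inl h7)
    apply hst
    have h' : psi e χ 1 = (Fintype.card F : ℂ) + 1 ∨ psi e χ 1 = (((Fintype.card F + 1) / 2 : ℕ) : ℂ) := by
      rwa [h1]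
    have := tr_sq e h0 ((S2322.result hodd _ hψ (cp s)).2 h' (cp_noEig hs))
      ((S2322.result hodd _ hψ (cp t)).2 h' (cp_noEig ht))
    rwa [tr_cp, tr_cp] at this
  have hz : ∀ a : Fˣ, (χ 1 = (Fintype.card F : ℂ) - 1 ∨ χ 1 = (((Fintype.card F - 1) / 2 : ℕ) : ℂ)) →
      (a : F) ^ 2 ≠ 1 → psi e χ (dg a) = 0 := by
    intro a h ha
    refine (S2322.result hodd _ hψ (dg a)).1 (by rwa [h1]) (by simp [dg]) (by simp [dg]) ?_
    simpa [dg] using ha
  have hspl : 8 ≤ Fintype.card F →
      ¬ (χ 1 = (Fintype.card F : ℂ) - 1 ∨ χ 1 = (((Fintype.card F - 1) / 2 : ℕ) : ℂ)) := by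
    intro h8 h
    obtain ⟨a, b, ha, hb, hab⟩ := exists_split h8
    apply hab
    have := tr_sq e h0 (hz a h ha) (hz b h hb)
    rwa [tr_dg, tr_dg] at this
  have h8' : ¬ 8 ≤ Fintype.card F → Fintype.card F = 7 := fun h => by omega
  rcases (S2299.result hodd).1 _ hψ with h | h | h | h | h | h
  · exact absurd (h1 ▸ h) (ne_one_of_oneZero hχ h0)
  · -- degree `q`
    exfalso
    have h2 : ringChar F ≠ 2 := by
      intro hc
      have := FiniteField.even_card_of_char_two hc
      obtain ⟨k, hk⟩ := hodd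
      omega
    obtain ⟨b, hb⟩ := FiniteField.exists_nonsquare h2
    have hb0 : b ≠ 0 := by
      rintro rfl
      exact hb (IsSquare.zero)
    have hzu : ∀ b : F, b ≠ 0 → psi e χ (ub b) = 0 := fun b hb =>
      (S2321.result _ hψ h (ub b)).2.2 (by simp [ub]) (by simp [ub]) (by simpa [ub] using hb)
    have hconj : IsConj (ub (1 : F)) (ub b) := by
      obtain ⟨x, -, hx⟩ := h0
      have h3 := (hx _ (hzu 1 one_ne_zero)).symm.trans (hx _ (hzu b hb0))
      refine isConj_of_mk ((H730.OZ.isConj_map_iff e.symm _ _).1 h3) (by rw [tr_ub, tr_ub]) ?_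
      rw [tr_ub]
      exact Ring.two_ne_zero h2
    obtain ⟨p, hp⟩ := CharP.exists F
    have hpp : Fact p.Prime := ⟨(CharP.char_is_prime F p)⟩
    have hp2 : p ≠ 2 := by
      rintro rfl
      exact h2 (ringChar.eq F 2)
    have h4 := (S2301.result (F := F) p hp2).2.2 (ub 1) (ub b) (by simp [ub]) (by simp [ub]) (by simp [ub])
      (by simp [ub]) (by simp [ub]) (by simp [ub]) (by simp [ub]) (by simpa [ub] using hb0)
    have h5 := h4.1 hconj
    apply hb
    simpa [ub] using h5
  · exact absurd (Or.inl (h1 ▸ h)) hnon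
  · by_cases h8 : 8 ≤ Fintype.card F
    · exact absurd (Or.inl (h1 ▸ h)) (hspl h8)
    · exfalso
      have hq := h8' h8
      have h20 := two_ne hq
      have h70 := seven_eq hq
      have e1 := zero_seven hq hψ h (fun z hz g => psi_center e χ hz g)
      have ha : ((Units.mk0 (2 : F) h20 : Fˣ) : F) ^ 2 ≠ 1 := by
        rw [Units.val_mk0]
        intro h3
        have : (1 : F) = 0 := by linear_combination h70 - 2 * h3
        exact one_ne_zero this
      have e2 := hz (Units.mk0 2 h20) (Or.inl (h1 ▸ h)) ha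
      have e3 := tr_sq e h0 e1 e2
      rw [tr_cp, tr_dg, Units.val_mk0] at e3
      have hinv : (2 : F)⁻¹ = 4 := by
        apply inv_eq_of_mul_eq_one_left
        linear_combination h70
      rw [hinv] at e3
      have : (1 : F) = 0 := by linear_combination (4 : F) * h70 + e3
      exact one_ne_zero this
  · exact absurd (Or.inr (h1 ▸ h)) hnon
  · by_cases h8 : 8 ≤ Fintype.card F
    · exact absurd (Or.inr (h1 ▸ h)) (hspl h8)
    · have hq := h8' h8
      refine Or.inr (Or.inl ⟨F, inferInstance, inferInstance, hq, ⟨e⟩, charDegree_of hχ ?_⟩)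
      rw [← h1, h, hq]

/-- **Row PSL₂(q)**, `q ≥ 4`. -/
theorem row_psl2 {S : Type u} [Group S] [Finite S] {F : Type} [Field F] [Fintype F] (h4 : 4 ≤ Fintype.card F)
    (e : S ≃* ProjectiveSpecialLinearGroup (Fin 2) F) : Row S := by
  by_cases h2 : ringChar F = 2
  · have : CharP F 2 := by
      rw [← h2]
      exact ringChar.charP F
    exact row_even h4 e
  · refine row_odd ?_ h4 e
    rw [← Nat.not_even_iff_odd, Nat.even_iff]
    have := FiniteField.odd_card_of_char_ne_two h2
    omega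

end Cfsg.Agent.H846.OZ
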