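import Cfsg.Agent.H846.OZ.Tr
import Mathlib.FieldTheory.Finite.Basic

/-!
# S4842, row PSL₂ (helper846): enough split and non-split elements
-/

set_option autoImplicit false

open Cfsg Finset

namespace Cfsg.Agent.H846.OZ

variable {F : Type*} [Field F] [Fintype F]

omit [Fintype F] in
theorem sq_eq_one_iff_of_side {a : F} (h : a ^ 2 = 1) : a = 1 ∨ a = -1 := by
  have h1 : (a - 1) * (a + 1) = 0 := by linear_combination h
  rcases mul_eq_zero.1 h1 with h2 | h2
  · exact Or.inl (sub_eq_zero.1 h2)
  · exact Or.inr (eq_neg_of_add_eq_zero_left h2)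

/-- the trace of a split element -/
def sp (a : Fˣ) : F := (a : F) + (a : F)⁻¹

/-- Split elements: two values of `a + a⁻¹` which differ up to sign. -/
theorem exists_split (h8 : 8 ≤ Fintype.card F) :
    ∃ a b : Fˣ, (a : F) ^ 2 ≠ 1 ∧ (b : F) ^ 2 ≠ 1 ∧ ((a : F) + (a : F)⁻¹) ^ 2 ≠ ((b : F) + (b : F)⁻¹) ^ 2 := by
  classical
  have key : ∀ s : Finset F, s.card < Fintype.card F → ∃ a : F, a ∉ s := by
    intro s hs
    by_contra hcon
    push Not at hcon
    have : s = univ := eq_univ_iff_forall.2 hcon
    rw [this, card_univ] at hs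
    exact lt_irrefl _ hs
  obtain ⟨a, ha⟩ := key {0, 1, -1} (lt_of_le_of_lt (card_le_three (a := (0 : F)) (b := 1) (c := -1)) (by omega))
  simp only [mem_insert, mem_singleton, not_or] at ha
  have hcard : (({0, 1, -1, a, -a, a⁻¹, -a⁻¹} : Finset F)).card ≤ 7 := by
    refine le_trans (card_insert_le _ _) ?_
    refine Nat.succ_le_succ (le_trans (card_insert_le _ _) ?_)
    refine Nat.succ_le_succ (le_trans (card_insert_le _ _) ?_)
    refine Nat.succ_le_succ (le_trans (card_insert_le _ _) ?_)
    refine Nat.succ_le_succ (le_trans (card_insert_le _ _) ?_)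
    refine Nat.succ_le_succ (le_trans (card_insert_le _ _) ?_)
    simp
  obtain ⟨b, hb⟩ := key {0, 1, -1, a, -a, a⁻¹, -a⁻¹} (lt_of_le_of_lt hcard (by omega))
  simp only [mem_insert, mem_singleton, not_or] at hb
  obtain ⟨hb0, hb1, hb2, hb3, hb4, hb5, hb6⟩ := hb
  refine ⟨Units.mk0 a ha.1, Units.mk0 b hb0, ?_, ?_, ?_⟩
  · simp only [Units.val_mk0]
    intro h
    rcases sq_eq_one_iff_of_side h with h | h
    · exact ha.2.1 h
    · exact ha.2.2 h
  · simp only [Units.val_mk0]
    intro h
    rcases sq_eq_one_iff_of_side h with h | h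
    · exact hb1 h
    · exact hb2 h
  · simp only [Units.val_mk0]
    intro h
    have ha0 : a ≠ 0 := ha.1
    have h2 : (b - a) * (b + a) * ((b * a - 1) * (b * a + 1)) = 0 := by
      have e1 : (a + a⁻¹) ^ 2 * (a ^ 2 * b ^ 2) = (b + b⁻¹) ^ 2 * (a ^ 2 * b ^ 2) := by rw [h]
      have e2 : (a + a⁻¹) ^ 2 * (a ^ 2 * b ^ 2) = (a ^ 2 + 1) ^ 2 * b ^ 2 := by
        field_simp
      have e3 : (b + b⁻¹) ^ 2 * (a ^ 2 * b ^ 2) = (b ^ 2 + 1) ^ 2 * a ^ 2 := by
        field_simp
      rw [e2, e3] at e1
      linear_combination -e1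
    rcases mul_eq_zero.1 h2 with h3 | h3
    · rcases mul_eq_zero.1 h3 with h4 | h4
      · exact hb3 (sub_eq_zero.1 h4)
      · exact hb4 (eq_neg_of_add_eq_zero_left h4)
    · rcases mul_eq_zero.1 h3 with h4 | h4
      · exact hb5 (eq_inv_of_mul_eq_one_left (sub_eq_zero.1 h4))
      · apply hb6
        have h5 : b * a = -1 := eq_neg_of_add_eq_zero_left h4
        have h6 : b = -1 * a⁻¹ := by rw [← h5, mul_assoc, mul_inv_cancel₀ ha0, mul_one]
        rw [h6]; ring

/-- Twice the number of `t` with `x² - t x + 1` reducible. -/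
theorem card_red [DecidableEq F] : 2 * ((univ : Finset Fˣ).image sp).card ≤
    (Fintype.card F - 1) + (({2, -2} : Finset F)).card := by
  classical
  set f : Fˣ → F := sp with hf
  set Im := (univ : Finset Fˣ).image f with hIm
  have h1 : (univ : Finset Fˣ).card = ∑ t ∈ Im, ((univ : Finset Fˣ).filter fun a => f a = t).card :=
    card_eq_sum_card_fiberwise fun a _ => by
      simp only [hIm, coe_image, coe_univ, Set.image_univ, Set.mem_range]
      exact ⟨a, rfl⟩
  have hu : (univ : Finset Fˣ).card = Fintype.card F - 1 := by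
    rw [card_univ, Fintype.card_units]
  have h2 : ∀ t ∈ Im, 2 ≤ ((univ : Finset Fˣ).filter fun a => f a = t).card +
      (if t ∈ ({2, -2} : Finset F) then 1 else 0) := by
    intro t ht
    obtain ⟨a, -, rfl⟩ := mem_image.1 ht
    split_ifs with hP
    · have : 0 < ((univ : Finset Fˣ).filter fun b => f b = f a).card :=
        card_pos.2 ⟨a, mem_filter.2 ⟨mem_univ _, rfl⟩⟩
      omega
    · have hne : a ≠ a⁻¹ := by
        intro h
        apply hP
        have h3 : (a : F) * a = 1 := by
          have := congrArg (fun x : Fˣ => ((x * a : Fˣ) : F)) h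
          simpa using this
        have h4 : (a : F) ^ 2 = 1 := by rw [pow_two]; exact h3
        have h5 : (a : F)⁻¹ = a := inv_eq_of_mul_eq_one_left h3
        rcases sq_eq_one_iff_of_side h4 with h6 | h6
        · simp only [mem_insert, mem_singleton]
          left
          simp only [hf, sp, h6]; norm_num
        · simp only [mem_insert, mem_singleton]
          right
          simp only [hf, sp, h6]; norm_num
      have h7 : ({a, a⁻¹} : Finset Fˣ) ⊆ (univ : Finset Fˣ).filter fun b => f b = f a := by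
        intro b hb
        simp only [mem_insert, mem_singleton] at hb
        refine mem_filter.2 ⟨mem_univ _, ?_⟩
        rcases hb with rfl | rfl
        · rfl
        · simp only [hf, sp, Units.val_inv_eq_inv_val, inv_inv]; ring
      have h8 := card_le_card h7
      rw [card_pair hne] at h8
      omega
  have h3 := sum_le_sum h2
  rw [sum_const, sum_add_distrib, ← h1, hu, smul_eq_mul] at h3
  have h4 : ∑ t ∈ Im, (if t ∈ ({2, -2} : Finset F) then 1 else 0) ≤ (({2, -2} : Finset F)).card := by
    rw [← sum_filter, sum_const, smul_eq_mul, mul_one]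
    exact card_le_card fun t ht => (mem_filter.1 ht).2
  rw [mul_comm]
  exact le_trans h3 (Nat.add_le_add_left h4 _)

theorem irr_iff [DecidableEq F] (t : F) : Irr t ↔ t ∉ (univ : Finset Fˣ).image sp := by
  constructor
  · intro h ht
    obtain ⟨a, -, rfl⟩ := mem_image.1 ht
    apply h a
    have : (a : F) ≠ 0 := a.ne_zero
    unfold sp
    field_simp
    ring
  · intro h x hx
    apply h
    have hx0 : x ≠ 0 := by
      rintro rfl
      simp at hx
    refine mem_image.2 ⟨Units.mk0 x hx0, mem_univ _, ?_⟩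
    simp only [sp, Units.val_mk0]
    have h1 : t * x = x ^ 2 + 1 := by linear_combination -hx
    have h2 : t = (x ^ 2 + 1) * x⁻¹ := by rw [← h1, mul_assoc, mul_inv_cancel₀ hx0, mul_one]
    rw [h2]
    field_simp

/-- Non-split elements: two different values of `t²`. -/
theorem exists_irr (h : 7 ≤ Fintype.card F ∨ (4 ≤ Fintype.card F ∧ CharP F 2)) :
    ∃ s t : F, Irr s ∧ Irr t ∧ s ^ 2 ≠ t ^ 2 := by
  classical
  set Im := (univ : Finset Fˣ).image sp with hIm
  have h1 := card_red (F := F)
  rw [← hIm] at h1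
  have h2 : (univ \ Im).card = Fintype.card F - Im.card := by
    rw [card_sdiff_of_subset (subset_univ _), card_univ]
  have hmem : ∀ t, t ∈ univ \ Im → Irr t := fun t ht => (irr_iff t).2 (mem_sdiff.1 ht).2
  by_cases hc : CharP F 2
  · have h20 : (2 : F) = 0 := CharTwo.two_eq_zero
    have h3 : (({2, -2} : Finset F)).card = 1 := by
      rw [h20, neg_zero]
      simp
    rw [h3] at h1
    have h4 : 4 ≤ Fintype.card F := by omega
    have h5 : 1 < (univ \ Im).card := by omega
    obtain ⟨s, hs, t, ht, hst⟩ := one_lt_card.1 h5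
    refine ⟨s, t, hmem s hs, hmem t ht, fun e => hst ?_⟩
    have e2 : (s - t) ^ 2 = 0 := by
      have : (s - t) ^ 2 = s ^ 2 - t ^ 2 - 2 * t * (s - t) := by ring
      rw [this, e, h20]; ring
    exact sub_eq_zero.1 ((pow_eq_zero_iff (by norm_num)).1 e2)
  · have h7 : 7 ≤ Fintype.card F := by
      rcases h with h | h
      · exact h
      · exact absurd h.2 hc
    have h3 : (({2, -2} : Finset F)).card ≤ 2 := card_le_two
    have h5 : 2 < (univ \ Im).card := by omega
    obtain ⟨s, hs⟩ : (univ \ Im).Nonempty := card_pos.1 (by omega)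
    obtain ⟨t, ht, ht'⟩ : ∃ t ∈ univ \ Im, t ∉ ({s, -s} : Finset F) := by
      by_contra hcon
      push Not at hcon
      have := card_le_card (s := univ \ Im) (t := {s, -s}) fun t ht => hcon t ht
      have h6 : (({s, -s} : Finset F)).card ≤ 2 := card_le_two
      omega
    refine ⟨s, t, hmem s hs, hmem t ht, fun e => ht' ?_⟩
    simp only [mem_insert, mem_singleton]
    rcases sq_eq_sq_iff_eq_or_eq_neg.1 e.symm with h | h
    · exact Or.inl h
    · exact Or.inr h

end Cfsg.Agent.H846.OZ
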