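import Cfsg.Agent.H846.OZ.Count
import Cfsg.Agent.Characters.Linear
import Cfsg.Agent.S2300
import Cfsg.Agent.S2309
import Cfsg.Agent.S0252
import Cfsg.Agent.S0253

/-!
# S4842, row PSL₂(2^a) (helper846)
-/

set_option autoImplicit false

open Cfsg
open Matrix (ProjectiveSpecialLinearGroup)

namespace Cfsg.Agent.H846.OZ

open Cfsg.Agent.H730.OZ (OneZero Concl Row)
open Cfsg.Agent.Characters

universe u

section psi

variable {S : Type*} [Group S] {F : Type*} [Field F]

/-- the character of `SL₂` -/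
def psi (e : S ≃* ProjectiveSpecialLinearGroup (Fin 2) F) (χ : S → ℂ) : Matrix.SpecialLinearGroup (Fin 2) F → ℂ :=
  fun g => χ (e.symm (QuotientGroup.mk' (Subgroup.center (Matrix.SpecialLinearGroup (Fin 2) F)) g))

theorem isIrr_psi (e : S ≃* ProjectiveSpecialLinearGroup (Fin 2) F) {χ : S → ℂ} (hχ : IsIrrCharacter S χ) :
    IsIrrCharacter _ (psi e χ) :=
  Core.isIrr_comp (e.symm.toMonoidHom.comp (QuotientGroup.mk' (Subgroup.center (Matrix.SpecialLinearGroup (Fin 2) F))))
    (e.symm.surjective.comp (QuotientGroup.mk'_surjective _)) hχ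

theorem psi_one (e : S ≃* ProjectiveSpecialLinearGroup (Fin 2) F) (χ : S → ℂ) : psi e χ 1 = χ 1 := by
  unfold psi
  rw [map_one, map_one]

theorem psi_center (e : S ≃* ProjectiveSpecialLinearGroup (Fin 2) F) (χ : S → ℂ)
    {z : Matrix.SpecialLinearGroup (Fin 2) F} (hz : z ∈ Subgroup.center (Matrix.SpecialLinearGroup (Fin 2) F))
    (g : Matrix.SpecialLinearGroup (Fin 2) F) : psi e χ (z * g) = psi e χ g := by
  unfold psi
  rw [map_mul, (QuotientGroup.eq_one_iff (N := Subgroup.center (Matrix.SpecialLinearGroup (Fin 2) F)) z).2 hz |>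
    (show QuotientGroup.mk' (Subgroup.center (Matrix.SpecialLinearGroup (Fin 2) F)) z = 1 from ·), one_mul]

theorem tr_sq (e : S ≃* ProjectiveSpecialLinearGroup (Fin 2) F) {χ : S → ℂ} (h : OneZero χ)
    {g k : Matrix.SpecialLinearGroup (Fin 2) F} (hg : psi e χ g = 0) (hk : psi e χ k = 0) : tr g ^ 2 = tr k ^ 2 :=
  tr_sq_of_zero e h hg hk

/-- A linear character has no zeros. -/
theorem ne_one_of_oneZero {χ : S → ℂ} (hχ : IsIrrCharacter S χ) (h : OneZero χ) : χ 1 ≠ 1 := by
  intro h1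
  obtain ⟨f, rfl⟩ := Linear.isIrrCharacter_degree_one_iff.1 ⟨hχ, h1⟩
  obtain ⟨x, hx, -⟩ := h
  exact (f x).ne_zero hx

end psi

section gl

variable {F : Type*} [Field F] [Fintype F]

theorem card_two [CharP F 2] : ∃ a : ℕ, Fintype.card F = 2 ^ a := by
  obtain ⟨a, -, ha⟩ := FiniteField.card F 2
  exact ⟨a, ha⟩

theorem sq_root [CharP F 2] (x : F) : (x ^ (Fintype.card F / 2)) ^ 2 = x := by
  obtain ⟨a, -, ha⟩ := FiniteField.card F 2
  have h1 : Fintype.card F / 2 * 2 = Fintype.card F := by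
    apply Nat.div_mul_cancel
    rw [ha]
    exact dvd_pow_self 2 a.pos.ne'
  rw [← pow_mul, h1, FiniteField.pow_card]

/-- the retraction of `GL₂` onto `SL₂` in characteristic two -/
def ret [CharP F 2] : Matrix.GeneralLinearGroup (Fin 2) F →* Matrix.SpecialLinearGroup (Fin 2) F where
  toFun g := ⟨((g : Matrix (Fin 2) (Fin 2) F).det⁻¹ ^ (Fintype.card F / 2)) • (g : Matrix (Fin 2) (Fin 2) F), by
    have h0 : (g : Matrix (Fin 2) (Fin 2) F).det ≠ 0 := by
      have := (Matrix.isUnit_iff_isUnit_det _).1 g.isUnit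
      exact this.ne_zero
    rw [Matrix.det_smul, Fintype.card_fin, sq_root, inv_mul_cancel₀ h0]⟩
  map_one' := by
    apply Subtype.ext
    simp
  map_mul' g k := by
    apply Subtype.ext
    change (((g * k : Matrix.GeneralLinearGroup (Fin 2) F) : Matrix (Fin 2) (Fin 2) F).det⁻¹ ^ (Fintype.card F / 2)) •
      ((g * k : Matrix.GeneralLinearGroup (Fin 2) F) : Matrix (Fin 2) (Fin 2) F) =
      (((g : Matrix (Fin 2) (Fin 2) F).det⁻¹ ^ (Fintype.card F / 2)) • (g : Matrix (Fin 2) (Fin 2) F)) *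
      (((k : Matrix (Fin 2) (Fin 2) F).det⁻¹ ^ (Fintype.card F / 2)) • (k : Matrix (Fin 2) (Fin 2) F))
    rw [Units.val_mul, Matrix.det_mul, mul_inv, mul_pow, Matrix.smul_mul, Matrix.mul_smul, smul_smul]

theorem ret_toGL [CharP F 2] (g : Matrix.SpecialLinearGroup (Fin 2) F) :
    ret (Matrix.SpecialLinearGroup.toGL g) = g := by
  apply Subtype.ext
  have h1 : ((Matrix.SpecialLinearGroup.toGL g : Matrix.GeneralLinearGroup (Fin 2) F) : Matrix (Fin 2) (Fin 2) F) =
    (g : Matrix (Fin 2) (Fin 2) F) := rfl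
  change (((Matrix.SpecialLinearGroup.toGL g : Matrix.GeneralLinearGroup (Fin 2) F) :
    Matrix (Fin 2) (Fin 2) F).det⁻¹ ^ (Fintype.card F / 2)) • ((Matrix.SpecialLinearGroup.toGL g :
    Matrix.GeneralLinearGroup (Fin 2) F) : Matrix (Fin 2) (Fin 2) F) = (g : Matrix (Fin 2) (Fin 2) F)
  rw [h1, g.det_coe, inv_one, one_pow, one_smul]

theorem ret_surj [CharP F 2] : Function.Surjective (ret (F := F)) := fun g => ⟨_, ret_toGL g⟩

/-- Zeros of the characters of `SL₂(2^a)`. -/
theorem zero_even [CharP F 2] {ψ : Matrix.SpecialLinearGroup (Fin 2) F → ℂ} (hψ : IsIrrCharacter _ ψ)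
    (g : Matrix.SpecialLinearGroup (Fin 2) F) :
    (ψ 1 = (Fintype.card F : ℂ) - 1 → (g : Matrix (Fin 2) (Fin 2) F) 0 1 = 0 → (g : Matrix (Fin 2) (Fin 2) F) 1 0 = 0 →
      (g : Matrix (Fin 2) (Fin 2) F) 0 0 ≠ (g : Matrix (Fin 2) (Fin 2) F) 1 1 → ψ g = 0) ∧
    (ψ 1 = (Fintype.card F : ℂ) + 1 → (∀ (c : F) (v : Fin 2 → F), v ≠ 0 →
      (g : Matrix (Fin 2) (Fin 2) F).mulVec v ≠ c • v) → ψ g = 0) := by
  have h1 := S2309.result (ψ ∘ ret) (Core.isIrr_comp _ ret_surj hψ) (Matrix.SpecialLinearGroup.toGL g)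
  simp only [Function.comp_apply, map_one, ret_toGL] at h1
  exact h1

end gl

/-- degree of the character -/
theorem charDegree_of {S : Type*} [Group S] [Finite S] {χ : S → ℂ} (hχ : IsIrrCharacter S χ) {n : ℕ} (h : χ 1 = n) :
    charDegree χ = n := by
  have := H686.CharKit.charDegree_cast (Core.isIrr_isCharacter hχ)
  rw [h] at this
  exact_mod_cast this

theorem iso_five_of_four {S : Type*} [Group S] {F : Type*} [Field F] [Fintype F] (hF : Fintype.card F = 4)
    (e : S ≃* ProjectiveSpecialLinearGroup (Fin 2) F) :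
    ∃ (F : Type) (_ : Field F) (_ : Fintype F), Fintype.card F = 5 ∧
      Nonempty (S ≃* ProjectiveSpecialLinearGroup (Fin 2) F) := by
  have : Fact (Nat.Prime 5) := ⟨by norm_num⟩
  obtain ⟨f⟩ := S0252.result hF
  obtain ⟨f'⟩ := S0253.result (F := ZMod 5) (by rw [ZMod.card])
  exact ⟨ZMod 5, inferInstance, inferInstance, by rw [ZMod.card], ⟨(e.trans f).trans f'.symm⟩⟩

/-- **Row PSL₂(2^a)**, `a ≥ 2`. -/
theorem row_even {S : Type u} [Group S] [Finite S] {F : Type} [Field F] [Fintype F] [CharP F 2]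
    (h4 : 4 ≤ Fintype.card F) (e : S ≃* ProjectiveSpecialLinearGroup (Fin 2) F) : Row S := by
  intro χ hχ h0
  have hψ := isIrr_psi e hχ
  have h1 := psi_one e χ
  rcases (S2300.result (F := F)).1 _ hψ with h | h | h | h
  · exact absurd (h1 ▸ h) (ne_one_of_oneZero hχ h0)
  · rcases Nat.lt_or_ge (Fintype.card F) 8 with h8 | h8
    · -- `q = 4`
      have hq : Fintype.card F = 4 := by
        obtain ⟨a, ha⟩ := card_two (F := F)
        have ha3 : a < 3 := by
          by_contra hcon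
          have : 2 ^ 3 ≤ 2 ^ a := Nat.pow_le_pow_right (by norm_num) (by omega)
          omega
        interval_cases a <;> omega
      obtain ⟨F', i1, i2, hF', e'⟩ := iso_five_of_four hq e
      refine Or.inl ⟨F', i1, i2, hF', e', charDegree_of hχ ?_⟩
      rw [← h1, h, hq]
      norm_num
    · exfalso
      obtain ⟨a, b, ha, hb, hab⟩ := exists_split h8
      have hz : ∀ a : Fˣ, (a : F) ^ 2 ≠ 1 → psi e χ (dg a) = 0 := by
        intro a ha
        refine (zero_even hψ (dg a)).1 h (by simp [dg]) (by simp [dg]) ?_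
        intro hc
        apply ha
        have : (a : F) = (a : F)⁻¹ := by simpa [dg] using hc
        rw [pow_two]
        nth_rw 2 [this]
        exact mul_inv_cancel₀ a.ne_zero
      apply hab
      have := tr_sq e h0 (hz a ha) (hz b hb)
      rwa [tr_dg, tr_dg] at this
  · obtain ⟨a, ha⟩ := card_two (F := F)
    have ha2 : 2 ≤ a := by
      by_contra hcon
      have : 2 ^ a ≤ 2 ^ 1 := Nat.pow_le_pow_right (by norm_num) (by omega)
      omega
    refine Or.inr (Or.inr ⟨F, inferInstance, inferInstance, a, ha2, ha, ⟨e⟩, charDegree_of hχ ?_⟩)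
    rw [← h1, h, ha]
  · exfalso
    obtain ⟨s, t, hs, ht, hst⟩ := exists_irr (F := F) (Or.inr ⟨h4, inferInstance⟩)
    apply hst
    have := tr_sq e h0 ((zero_even hψ (cp s)).2 h (cp_noEig hs)) ((zero_even hψ (cp t)).2 h (cp_noEig ht))
    rwa [tr_cp, tr_cp] at this

end Cfsg.Agent.H846.OZ
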