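import Cfsg.Agent.H730.OZ.Asm
import Mathlib.LinearAlgebra.Matrix.ProjectiveSpecialLinearGroup
import Mathlib.LinearAlgebra.Matrix.SpecialLinearGroup

/-!
# S4842, row PSL₂ (helper846): traces of the zeros; elements of `SL₂` with prescribed trace
-/

set_option autoImplicit false

open Cfsg
open Matrix (ProjectiveSpecialLinearGroup)

namespace Cfsg.Agent.H846.OZ

open Cfsg.Agent.H730.OZ (OneZero Concl Row)

variable {F : Type*} [Field F]

/-- the trace -/
def tr (g : Matrix.SpecialLinearGroup (Fin 2) F) : F := (g : Matrix (Fin 2) (Fin 2) F).trace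

theorem tr_conj (g k : Matrix.SpecialLinearGroup (Fin 2) F) : tr (k * g * k⁻¹) = tr g := by
  unfold tr
  have h : ((k * g * k⁻¹ : Matrix.SpecialLinearGroup (Fin 2) F) : Matrix (Fin 2) (Fin 2) F) =
      (k : Matrix (Fin 2) (Fin 2) F) * (g : Matrix (Fin 2) (Fin 2) F) *
        ((k⁻¹ : Matrix.SpecialLinearGroup (Fin 2) F) : Matrix (Fin 2) (Fin 2) F) := by
    simp only [Matrix.SpecialLinearGroup.coe_mul]
  rw [h, Matrix.trace_mul_cycle]
  have h2 : ((k⁻¹ : Matrix.SpecialLinearGroup (Fin 2) F) : Matrix (Fin 2) (Fin 2) F) *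
      (k : Matrix (Fin 2) (Fin 2) F) = 1 := by
    rw [← Matrix.SpecialLinearGroup.coe_mul, inv_mul_cancel, Matrix.SpecialLinearGroup.coe_one]
  rw [h2, one_mul]

/-- Elements with conjugate images in `PSL₂` have the same trace up to sign. -/
theorem tr_sq_of_isConj {g h : Matrix.SpecialLinearGroup (Fin 2) F}
    (H : IsConj (QuotientGroup.mk' (Subgroup.center (Matrix.SpecialLinearGroup (Fin 2) F)) g)
      (QuotientGroup.mk' (Subgroup.center (Matrix.SpecialLinearGroup (Fin 2) F)) h)) : tr g ^ 2 = tr h ^ 2 := by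
  obtain ⟨c, hc⟩ := isConj_iff.1 H
  obtain ⟨k, rfl⟩ := QuotientGroup.mk'_surjective _ c
  rw [← map_mul, ← map_inv, ← map_mul] at hc
  obtain ⟨z, hz, e⟩ := (QuotientGroup.mk'_eq_mk' _).1 hc
  obtain ⟨r, hr1, hr2⟩ := Matrix.SpecialLinearGroup.mem_center_iff.1 hz
  have h1 : ((z : Matrix.SpecialLinearGroup (Fin 2) F) : Matrix (Fin 2) (Fin 2) F) = r • (1 : Matrix (Fin 2) (Fin 2) F) := by
    rw [← hr2]
    ext i j
    simp [Matrix.scalar_apply, Matrix.diagonal_apply, Matrix.one_apply]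
  have h2 : r ^ 2 = 1 := by simpa using hr1
  have h3 : tr h = r * tr g := by
    rw [← tr_conj g k, ← e]
    unfold tr
    rw [Matrix.SpecialLinearGroup.coe_mul, h1, Matrix.mul_smul, Matrix.mul_one, Matrix.trace_smul, smul_eq_mul]
  rw [h3, mul_pow, h2, one_mul]

/-- **The zeros of a character with one class of zeros have the same trace up to sign.** -/
theorem tr_sq_of_zero {S : Type*} [Group S] (e : S ≃* ProjectiveSpecialLinearGroup (Fin 2) F) {χ : S → ℂ}
    (h : OneZero χ) {g k : Matrix.SpecialLinearGroup (Fin 2) F} (hg : χ (e.symm (QuotientGroup.mk' _ g)) = 0)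
    (hk : χ (e.symm (QuotientGroup.mk' _ k)) = 0) : tr g ^ 2 = tr k ^ 2 := by
  obtain ⟨x, -, hx⟩ := h
  have h1 := (hx _ hg).symm.trans (hx _ hk)
  exact tr_sq_of_isConj ((H730.OZ.isConj_map_iff e.symm _ _).1 h1)

/-- the diagonal element -/
def dg (a : Fˣ) : Matrix.SpecialLinearGroup (Fin 2) F := ⟨!![(a : F), 0; 0, (a : F)⁻¹], by simp [Matrix.det_fin_two]⟩

theorem tr_dg (a : Fˣ) : tr (dg a) = (a : F) + (a : F)⁻¹ := by
  simp [tr, dg, Matrix.trace_fin_two]

/-- the companion element -/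
def cp (t : F) : Matrix.SpecialLinearGroup (Fin 2) F := ⟨!![0, -1; 1, t], by simp [Matrix.det_fin_two]⟩

theorem tr_cp (t : F) : tr (cp t) = t := by
  simp [tr, cp, Matrix.trace_fin_two]

/-- `x² - t x + 1` has no root -/
def Irr (t : F) : Prop := ∀ x : F, x ^ 2 - t * x + 1 ≠ 0

theorem cp_noEig {t : F} (ht : Irr t) (c : F) (v : Fin 2 → F) (hv : v ≠ 0) :
    (cp t : Matrix (Fin 2) (Fin 2) F).mulVec v ≠ c • v := by
  intro h
  have h0 := congrFun h 0
  have h1 := congrFun h 1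
  simp [cp, Matrix.mulVec, dotProduct, Fin.sum_univ_two] at h0 h1
  -- h0 : -v 1 = c * v 0, h1 : v 0 + t * v 1 = c * v 1
  have h2 : (c ^ 2 - t * c + 1) * v 0 = 0 := by
    have e1 : v 1 = -(c * v 0) := by rw [← h0]; ring
    rw [e1] at h1
    linear_combination h1
  rcases mul_eq_zero.1 h2 with h3 | h3
  · exact ht c h3
  · apply hv
    have e1 : v 1 = 0 := by
      rw [h3, mul_zero] at h0
      exact neg_eq_zero.1 h0
    funext i
    fin_cases i
    · exact h3
    · exact e1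

end Cfsg.Agent.H846.OZ
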